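import Cfsg.Agent.HForm.Bridge

/-!
Spectra of powers of a group absorbing an elementary abelian factor.
-/

set_option autoImplicit false

namespace Cfsg.Agent.HForm

variable {L : Type*} [Group L] [Finite L]

omit [Finite L] in
theorem absorb_split (p A : ℕ) (Pf : Prop) (x : L)
    (h : orderOf x ∣ A ∨ (Pf ∧ ∃ j, orderOf x = p ^ j)) :
    ∃ a j : ℕ, a ∣ A ∧ p ^ j ∈ Set.range (orderOf : L → ℕ) ∧ (¬ Pf → j = 0) ∧
      orderOf x = Nat.lcm a (p ^ j) := by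
  rcases h with h | ⟨hP, j, hj⟩
  · exact ⟨_, 0, h, ⟨1, by simp⟩, fun _ => rfl, by simp⟩
  · exact ⟨1, j, one_dvd _, ⟨x, hj⟩, fun h => absurd hP h, by simp [hj]⟩

theorem lcm_pow_pow (p i j : ℕ) : Nat.lcm (p ^ i) (p ^ j) = p ^ (max i j) := by
  rcases le_total i j with h | h
  · rw [max_eq_right h]; exact Nat.lcm_eq_right (pow_dvd_pow p h)
  · rw [max_eq_left h]; exact Nat.lcm_eq_left (pow_dvd_pow p h)

omit [Finite L] in
theorem pow_max_mem {p i j : ℕ} (hi : p ^ i ∈ Set.range (orderOf : L → ℕ))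
    (hj : p ^ j ∈ Set.range (orderOf : L → ℕ)) : p ^ (max i j) ∈ Set.range (orderOf : L → ℕ) := by
  rcases le_total i j with h | h
  · rwa [max_eq_right h]
  · rwa [max_eq_left h]

theorem absorb (r p A : ℕ) (hr : r.Prime) (hA : A ∈ Set.range (orderOf : L → ℕ))
    (hrω : r ∈ Set.range (orderOf : L → ℕ)) (Pf : Prop)
    (htri : ∀ x : L, ¬ r ∣ orderOf x → r * orderOf x ∈ Set.range (orderOf : L → ℕ) ∨
      orderOf x ∣ A ∨ (Pf ∧ ∃ j, orderOf x = p ^ j))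
    {Z : Type*} [Group Z] (hZ : ∀ z : Z, z ^ r = 1) :
    Set.range (orderOf : L × L × L × Z → ℕ) = Set.range (orderOf : L × L × L → ℕ) ∧
    (¬ Pf → Set.range (orderOf : L × L × Z → ℕ) = Set.range (orderOf : L × L → ℕ)) := by
  have hgood : ∀ x : L, (r ∣ orderOf x ∨ r * orderOf x ∈ Set.range (orderOf : L → ℕ)) →
      ∃ y : L, orderOf y = Nat.lcm (orderOf x) r := by
    intro x hx
    by_cases h : r ∣ orderOf x
    · exact ⟨x, (Nat.lcm_eq_left h).symm⟩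
    · obtain ⟨y, hy⟩ := hx.resolve_left h
      refine ⟨y, ?_⟩
      rw [hy, ((Nat.Prime.coprime_iff_not_dvd hr).mpr h).symm.lcm_eq_mul, mul_comm]
  have hdich : ∀ x : L, (∃ y : L, orderOf y = Nat.lcm (orderOf x) r) ∨
      ∃ a j : ℕ, a ∣ A ∧ p ^ j ∈ Set.range (orderOf : L → ℕ) ∧ (¬ Pf → j = 0) ∧
        orderOf x = Nat.lcm a (p ^ j) := by
    intro x
    by_cases h : r ∣ orderOf x
    · exact Or.inl (hgood x (Or.inl h))
    rcases htri x h with h | h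
    · exact Or.inl (hgood x (Or.inr h))
    · exact Or.inr (absorb_split p A Pf x h)
  have hz : ∀ z : Z, orderOf z = 1 ∨ orderOf z = r := fun z =>
    (Nat.dvd_prime hr).mp (orderOf_dvd_of_pow_eq_one (hZ z))
  obtain ⟨t, ht⟩ := hrω
  constructor
  · apply Set.Subset.antisymm
    · rintro _ ⟨⟨a, b, c, z⟩, rfl⟩
      simp only [Prod.orderOf_mk]
      rcases hz z with hz | hz
      · exact ⟨(a, b, c), by simp [Prod.orderOf_mk, hz]⟩
      rw [hz]
      rcases hdich a with ⟨y, hy⟩ | ⟨a1, j1, ha1, hj1, -, h1⟩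
      · exact ⟨(y, b, c), by simp only [Prod.orderOf_mk, hy]; ac_rfl⟩
      rcases hdich b with ⟨y, hy⟩ | ⟨a2, j2, ha2, hj2, -, h2⟩
      · exact ⟨(a, y, c), by simp only [Prod.orderOf_mk, hy]; ac_rfl⟩
      rcases hdich c with ⟨y, hy⟩ | ⟨a3, j3, ha3, hj3, -, h3⟩
      · exact ⟨(a, b, y), by simp only [Prod.orderOf_mk, hy]⟩
      obtain ⟨u, hu⟩ := mem_range_orderOf_of_dvd hA
        (Nat.lcm_dvd ha1 (Nat.lcm_dvd ha2 ha3))
      obtain ⟨v, hv⟩ := pow_max_mem hj1 (pow_max_mem hj2 hj3)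
      refine ⟨(u, v, t), ?_⟩
      simp only [Prod.orderOf_mk, hu, hv, ht, h1, h2, h3, ← lcm_pow_pow]
      ac_rfl
    · rintro _ ⟨⟨a, b, c⟩, rfl⟩
      exact ⟨(a, b, c, 1), by simp [Prod.orderOf_mk]⟩
  · intro hP
    apply Set.Subset.antisymm
    · rintro _ ⟨⟨a, b, z⟩, rfl⟩
      simp only [Prod.orderOf_mk]
      rcases hz z with hz | hz
      · exact ⟨(a, b), by simp [Prod.orderOf_mk, hz]⟩
      rw [hz]
      rcases hdich a with ⟨y, hy⟩ | ⟨a1, j1, ha1, -, hj1, h1⟩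
      · exact ⟨(y, b), by simp only [Prod.orderOf_mk, hy]; ac_rfl⟩
      rcases hdich b with ⟨y, hy⟩ | ⟨a2, j2, ha2, -, hj2, h2⟩
      · exact ⟨(a, y), by simp only [Prod.orderOf_mk, hy]⟩
      obtain ⟨u, hu⟩ := mem_range_orderOf_of_dvd hA (Nat.lcm_dvd ha1 ha2)
      refine ⟨(u, t), ?_⟩
      simp only [Prod.orderOf_mk, hu, ht, h1, h2, hj1 hP, hj2 hP, pow_zero, Nat.lcm_one_right]
      ac_rfl
    · rintro _ ⟨⟨a, b⟩, rfl⟩
      exact ⟨(a, b, 1), by simp [Prod.orderOf_mk]⟩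

theorem zmod_pow_eq_one (m r : ℕ) (z : Multiplicative (Fin m → ZMod r)) : z ^ r = 1 := by
  apply Multiplicative.toAdd.injective
  funext i
  simp

end Cfsg.Agent.HForm
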